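import Cfsg.Agent.Lib.Helper51.GL3.Defs

/-!
# S1906 package (D): simultaneous diagonalisation of commuting involutions of `GL₃(F)` (helper69)
-/

set_option autoImplicit false

universe v

namespace Cfsg.Agent.Lib.Helper69.GL3

open Matrix

variable {F : Type v} [Field F]

/-- The common `±1`-eigenvectors of a set of matrices. -/
def eigSet (S : Set (GL (Fin 3) F)) : Set (Fin 3 → F) :=
  {x | ∀ a ∈ S, (a : Matrix (Fin 3) (Fin 3) F) *ᵥ x = x ∨
    (a : Matrix (Fin 3) (Fin 3) F) *ᵥ x = -x}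

theorem span_eigSet (h2 : (2 : F) ≠ 0) (S : Set (GL (Fin 3) F)) (hS : S.Finite)
    (hc : ∀ a ∈ S, ∀ b ∈ S, a * b = b * a) (hi : ∀ a ∈ S, a * a = 1) :
    Submodule.span F (eigSet S) = ⊤ := by
  induction S, hS using Set.Finite.induction_on with
  | empty =>
    have : eigSet (∅ : Set (GL (Fin 3) F)) = Set.univ := by
      ext x; simp [eigSet]
    rw [this]; simp
  | @insert d S hd hfin ih =>
    have ih' := ih (fun a ha b hb => hc a (Set.mem_insert_of_mem _ ha) b
      (Set.mem_insert_of_mem _ hb)) (fun a ha => hi a (Set.mem_insert_of_mem _ ha))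
    rw [eq_top_iff, ← ih']
    apply Submodule.span_le.mpr
    intro x hx
    have hDD : (d : Matrix (Fin 3) (Fin 3) F) * (d : Matrix (Fin 3) (Fin 3) F) = 1 := by
      have := hi d (Set.mem_insert _ _)
      have h' := congrArg (fun g : GL (Fin 3) F => (g : Matrix (Fin 3) (Fin 3) F)) this
      simpa using h'
    have hAD : ∀ a ∈ S, (a : Matrix (Fin 3) (Fin 3) F) * (d : Matrix (Fin 3) (Fin 3) F)
        = (d : Matrix (Fin 3) (Fin 3) F) * (a : Matrix (Fin 3) (Fin 3) F) := by
      intro a ha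
      have := hc a (Set.mem_insert_of_mem _ ha) d (Set.mem_insert _ _)
      have h' := congrArg (fun g : GL (Fin 3) F => (g : Matrix (Fin 3) (Fin 3) F)) this
      simpa using h'
    set D : Matrix (Fin 3) (Fin 3) F := (d : Matrix (Fin 3) (Fin 3) F) with hD
    have hDDx : ∀ z : Fin 3 → F, D *ᵥ (D *ᵥ z) = z := by
      intro z; rw [Matrix.mulVec_mulVec, hDD, Matrix.one_mulVec]
    have hp : x + D *ᵥ x ∈ eigSet (insert d S) := by
      intro a ha
      rcases ha with rfl | ha
      · left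
        rw [Matrix.mulVec_add, hDDx, add_comm]
      · have hcomm : (a : Matrix (Fin 3) (Fin 3) F) *ᵥ (D *ᵥ x)
            = D *ᵥ ((a : Matrix (Fin 3) (Fin 3) F) *ᵥ x) := by
          rw [Matrix.mulVec_mulVec, Matrix.mulVec_mulVec, hAD a ha]
        rcases hx a ha with h | h
        · left; rw [Matrix.mulVec_add, hcomm, h]
        · right; rw [Matrix.mulVec_add, hcomm, h, Matrix.mulVec_neg, neg_add]
    have hm : x - D *ᵥ x ∈ eigSet (insert d S) := by
      intro a ha
      rcases ha with rfl | ha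
      · right
        rw [Matrix.mulVec_sub, hDDx, neg_sub]
      · have hcomm : (a : Matrix (Fin 3) (Fin 3) F) *ᵥ (D *ᵥ x)
            = D *ᵥ ((a : Matrix (Fin 3) (Fin 3) F) *ᵥ x) := by
          rw [Matrix.mulVec_mulVec, Matrix.mulVec_mulVec, hAD a ha]
        rcases hx a ha with h | h
        · left; rw [Matrix.mulVec_sub, hcomm, h]
        · right; rw [Matrix.mulVec_sub, hcomm, h, Matrix.mulVec_neg]; abel
    have hx2 : x = (2 : F)⁻¹ • ((x + D *ᵥ x) + (x - D *ᵥ x)) := by
      have : (x + D *ᵥ x) + (x - D *ᵥ x) = (2 : F) • x := by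
        rw [two_smul]; abel
      rw [this, smul_smul, inv_mul_cancel₀ h2, one_smul]
    rw [hx2]
    exact Submodule.smul_mem _ _ (Submodule.add_mem _ (Submodule.subset_span hp)
      (Submodule.subset_span hm))

theorem lemDiag : Cfsg.Agent.Lib.Helper51.GL3.LemDiag.{v} := by
  intro F _ S hS h2 hc hi
  classical
  have hspan := span_eigSet h2 S hS hc hi
  let b0 := Module.Basis.ofSpan (K := F) (s := eigSet S) (le_of_eq hspan.symm)
  have hb0 : ∀ i, (b0 i) ∈ eigSet S := fun i => Module.Basis.ofSpan_subset _ ⟨i, rfl⟩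
  let e := Pi.basisFun F (Fin 3)
  let b := b0.reindex (b0.indexEquiv e)
  have hb : ∀ j, b j ∈ eigSet S := by
    intro j
    simp only [b, Module.Basis.reindex_apply]
    exact hb0 _
  let P : GL (Fin 3) F := ⟨e.toMatrix b, b.toMatrix e,
    Module.Basis.toMatrix_mul_toMatrix_flip _ _, Module.Basis.toMatrix_mul_toMatrix_flip _ _⟩
  refine ⟨P, fun a ha => ?_⟩
  let w : Fin 3 → F := fun j =>
    if (a : Matrix (Fin 3) (Fin 3) F) *ᵥ b j = b j then 1 else -1
  have hw : ∀ j, (a : Matrix (Fin 3) (Fin 3) F) *ᵥ b j = w j • b j := by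
    intro j
    by_cases h : (a : Matrix (Fin 3) (Fin 3) F) *ᵥ b j = b j
    · simp only [w, if_pos h, one_smul]; exact h
    · simp only [w, if_neg h, neg_smul, one_smul]
      exact (hb j a ha).resolve_left h
  refine ⟨w, fun i => ?_, ?_⟩
  · by_cases h : (a : Matrix (Fin 3) (Fin 3) F) *ᵥ b i = b i
    · left; simp only [w, if_pos h]
    · right; simp only [w, if_neg h]
  · have key : (a : Matrix (Fin 3) (Fin 3) F) * e.toMatrix b
        = e.toMatrix b * Matrix.diagonal w := by
      ext i j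
      rw [Matrix.mul_diagonal]
      have h1 := congrFun (hw j) i
      simp only [Matrix.mulVec, dotProduct, Pi.smul_apply, smul_eq_mul] at h1
      simp only [Matrix.mul_apply, Module.Basis.toMatrix_apply, e, Pi.basisFun_repr]
      rw [h1, mul_comm]
    have hPinv : ((P⁻¹ : GL (Fin 3) F) : Matrix (Fin 3) (Fin 3) F) * e.toMatrix b = 1 :=
      Units.inv_mul P
    show ((P⁻¹ * a * P : GL (Fin 3) F) : Matrix (Fin 3) (Fin 3) F) = Matrix.diagonal w
    have : ((P⁻¹ * a * P : GL (Fin 3) F) : Matrix (Fin 3) (Fin 3) F)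
        = ((P⁻¹ : GL (Fin 3) F) : Matrix (Fin 3) (Fin 3) F) *
          ((a : Matrix (Fin 3) (Fin 3) F) * e.toMatrix b) := by
      simp [P, Matrix.mul_assoc]
    rw [this, key, ← Matrix.mul_assoc, hPinv, Matrix.one_mul]

end Cfsg.Agent.Lib.Helper69.GL3
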